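import Cfsg.Agent.MaxSub.Dickson.Maximal

/-!
Tools for overgroups in `PGL(2, F)`: element orders, uniqueness of the fixed pair, commutators in
point stabilisers, and recognition of `PGL(2, F₀)` by three rational points.
-/

set_option autoImplicit false
set_option linter.unusedSectionVars false

open scoped OnePoint MatrixGroups

namespace Cfsg.Agent.MaxSub.Dickson

open Matrix MulAction

variable {F : Type*} [Field F] [Fintype F] [DecidableEq F]
variable {K : Type*} [Field K] [DecidableEq K] [Algebra F K]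
variable {p : ℕ} [Fact p.Prime] [CharP F p]

theorem aff_one_pow_prime (w : F) : (aff 1 w : PGL(2, F)) ^ p = 1 := by
  rw [aff_one_pow, CharP.cast_eq_zero F p, zero_mul, aff_eq_one_iff]
  exact ⟨rfl, rfl⟩

/-- Element orders in `PGL(2, F)`. -/
theorem orderOf_le_card_add_one (g : PGL(2, F)) : orderOf g ≤ Fintype.card F + 1 := by
  classical
  obtain ⟨f, hp, hq⟩ := FiniteField.card F (ringChar F)
  haveI : Fact (ringChar F).Prime := ⟨hp⟩
  haveI : CharP F (ringChar F) := ringChar.charP F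
  by_cases hg : g ^ ringChar F = 1
  · refine (orderOf_le_of_pow_eq_one hp.pos hg).trans ?_
    have : ringChar F ∣ Fintype.card F := hq ▸ dvd_pow_self _ f.ne_zero
    have := Nat.le_of_dvd Fintype.card_pos this
    omega
  · have : CharP (AlgebraicClosure F) (ringChar F) :=
      charP_of_injective_algebraMap (algebraMap F (AlgebraicClosure F)).injective _
    obtain ⟨a, ha⟩ := exists_fixed (emb (AlgebraicClosure F) g)
    obtain ⟨b, hb, hb'⟩ := (rot_subgroup (p := ringChar F) (⊤ : Subgroup PGL(2, AlgebraicClosure F))).two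
      ⟨_, Subgroup.mem_top (emb (AlgebraicClosure F) g)⟩ (fun e => hg (emb_injective (K := AlgebraicClosure F)
        (by rw [map_pow, map_one]; exact congrArg Subtype.val e))) a ha
    obtain ⟨m, hm⟩ := isPair_of_fixed (g := g) (fun e => hg (by rw [e, one_pow])) hb.symm ha hb'
    have hgt : g ∈ tor (F := F) a b := ⟨ha, hb'⟩
    have h1 : orderOf g ∣ m := hm.props.1 ▸ (Subgroup.orderOf_mk g hgt ▸ _root_.orderOf_dvd_natCard _)
    obtain ⟨-, ⟨-, -, rfl⟩ | ⟨-, -, rfl⟩⟩ := hm
    · have h2 : 1 < Fintype.card F := Fintype.one_lt_card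
      exact (Nat.le_of_dvd (by omega) h1).trans (by omega)
    · exact Nat.le_of_dvd (by omega) h1

/-- A non-trivial element fixes only one pair. -/
theorem pairStab_eq_of_fixed {c : PGL(2, F)} (hc : c ≠ 1) {a b a' b' : OnePoint K} (hab : a ≠ b)
    (hab' : a' ≠ b') (ha : emb K c • a = a) (hb : emb K c • b = b)
    (ha' : emb K c • a' = a') (hb' : emb K c • b' = b') :
    pairStab (F := F) a' b' = pairStab a b := by
  have hc' : emb K c ≠ 1 := fun e => hc (emb_injective (K := K) (by rw [e, map_one]))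
  have mem : ∀ x, emb K c • x = x → x = a ∨ x = b := fun x hx => by
    by_contra hh
    push Not at hh
    exact hc' (eq_one_of_three hab hh.1.symm hh.2.symm ha hb hx)
  rcases mem a' ha' with rfl | rfl <;> rcases mem b' hb' with rfl | rfl
  · exact absurd rfl hab'
  · rfl
  · ext g
    show (_ ∨ _) ↔ (_ ∨ _)
    exact or_congr and_comm and_comm
  · exact absurd rfl hab'

/-- Elements of odd order of the stabiliser of a pair fix both points. -/
theorem mem_tor_of_odd_pow {a b : OnePoint K} {g : PGL(2, F)} (hg : g ∈ pairStab a b) {j : ℕ}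
    (hj : g ^ (2 * j + 1) = 1) : g ∈ tor a b := by
  have h2 : g * g ∈ tor a b := by
    rw [mem_tor, map_mul, mul_smul, mul_smul]
    rcases hg with ⟨e1, e2⟩ | ⟨e1, e2⟩ <;> simp only [e1, e2, and_self]
  have : g = ((g * g) ^ j)⁻¹ := by
    rw [eq_inv_iff_mul_eq_one, ← pow_two, ← pow_mul, ← pow_succ']
    exact hj
  rw [this]
  exact inv_mem (pow_mem h2 j)

/-- Commutators in a point stabiliser are translations. -/
theorem commutator_pow_prime {x : OnePoint F} {u v : PGL(2, F)} (hu : u • x = x) (hv : v • x = x) :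
    (u * v * u⁻¹ * v⁻¹) ^ p = 1 := by
  obtain ⟨h, rfl⟩ := exists_move x
  obtain ⟨a, b, hab⟩ := exists_aff (fixed_conj hu)
  obtain ⟨c, d, hcd⟩ := exists_aff (fixed_conj hv)
  obtain ⟨a', b', hab'⟩ := exists_aff (g := (aff a b)⁻¹) (by rw [inv_smul_eq_iff, aff_infty])
  obtain ⟨c', d', hcd'⟩ := exists_aff (g := (aff c d)⁻¹) (by rw [inv_smul_eq_iff, aff_infty])
  have ea : a * a' = 1 := by
    have := mul_inv_cancel (aff a b)
    rw [hab', aff_mul, aff_eq_one_iff] at this
    exact this.1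
  have ec : c * c' = 1 := by
    have := mul_inv_cancel (aff c d)
    rw [hcd', aff_mul, aff_eq_one_iff] at this
    exact this.1
  have key : h⁻¹ * (u * v * u⁻¹ * v⁻¹) * h = aff a b * aff c d * (aff a b)⁻¹ * (aff c d)⁻¹ := by
    rw [← hab, ← hcd]; group
  rw [hab', hcd', aff_mul, aff_mul, aff_mul,
    show a * c * a' * c' = 1 by rw [mul_right_comm a c a', ea, one_mul, ec]] at key
  have h1 := congrArg (· ^ p) key
  simp only [aff_one_pow_prime] at h1
  have h2 : h⁻¹ * (u * v * u⁻¹ * v⁻¹) ^ p * h = 1 := by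
    rw [← h1]
    simpa using (conj_pow (a := h⁻¹) (b := u * v * u⁻¹ * v⁻¹) (i := p)).symm
  calc (u * v * u⁻¹ * v⁻¹) ^ p = h * (h⁻¹ * (u * v * u⁻¹ * v⁻¹) ^ p * h) * h⁻¹ := by group
    _ = 1 := by rw [h2]; group

/-- An element carrying three points over `F₀` to `∞, 0, 1` is in `PGL(2, F₀)`. -/
theorem mem_subPGL_of_points (F₀ : Subfield F) (h : PGL(2, F))
    (hpts : ∀ x ∈ ({∞, ((0 : F) : OnePoint F), ((1 : F) : OnePoint F)} : Set (OnePoint F)),
      ∃ c : OnePoint F₀, h • pt₀ F c = x) : h ∈ (subPGL F₀).range := by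
  classical
  have : Fintype F₀ := Fintype.ofFinite _
  obtain ⟨a, ha⟩ := hpts ∞ (by simp)
  obtain ⟨b, hb⟩ := hpts ((0 : F) : OnePoint F) (by simp)
  obtain ⟨c, hc⟩ := hpts ((1 : F) : OnePoint F) (by simp)
  have e1 : (∞ : OnePoint F) ≠ ((0 : F) : OnePoint F) := OnePoint.infty_ne_coe _
  have e2 : (∞ : OnePoint F) ≠ ((1 : F) : OnePoint F) := OnePoint.infty_ne_coe _
  have e3 : ((0 : F) : OnePoint F) ≠ ((1 : F) : OnePoint F) := by simp
  obtain ⟨s, s1, s2, s3⟩ := exists_move_three (a := a) (b := b) (c := c)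
    (fun e => e1 (ha.symm.trans ((congrArg (fun z => h • pt₀ F z) e).trans hb)))
    (fun e => e2 (ha.symm.trans ((congrArg (fun z => h • pt₀ F z) e).trans hc)))
    (fun e => e3 (hb.symm.trans ((congrArg (fun z => h • pt₀ F z) e).trans hc)))
  have h1 : h * emb F s = 1 := by
    refine eq_one_of_three e1 e2 e3 ?_ ?_ ?_
    · rw [mul_smul]
      conv_lhs => rw [← pt₀_infty (F := F₀) (K := F), emb_pt, s1, ha]
    · rw [mul_smul, show ((0 : F) : OnePoint F) = pt₀ F (((0 : F₀) : OnePoint F₀)) by simp [pt₀_coe],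
        emb_pt, s2, hb]
      simp [pt₀_coe]
    · rw [mul_smul, show ((1 : F) : OnePoint F) = pt₀ F (((1 : F₀) : OnePoint F₀)) by simp [pt₀_coe],
        emb_pt, s3, hc]
      simp [pt₀_coe]
  refine ⟨s⁻¹, ?_⟩
  rw [map_inv, eq_inv_of_mul_eq_one_left h1]
  rfl

end Cfsg.Agent.MaxSub.Dickson
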